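import Cfsg.Agent.H410.BR.OmForms
import Cfsg.Agent.H934.IdxCl

/-!
# `SL_m(F)` in `POmega F Q` (S4932, S4953, P1; helper35)

`exists_levi_plus` (`m < w`), `exists_levi_odd`, `exists_levi_minus` (`m ≤ w`): an injective homomorphism
`SL_m(F) → POmega F Q`, `w` the Witt index, `3 ≤ w`.
-/

set_option autoImplicit false

namespace Cfsg.Agent.H35.BD

open Matrix Module Cfsg Cfsg.Agent.H934.IdxCl
open Cfsg.Agent.LieClassical Cfsg.Agent.LieClassical.OrthCore Cfsg.Agent.LieClassical.OrthForms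
  Cfsg.Agent.LieClassical.OrthTrans Cfsg.Agent.LieClassical.OrthFinite Cfsg.Agent.H410.BR

variable {F : Type*} [Field F]

/-- the block embedding -/
def sl {κ ι : Type} [DecidableEq ι] [Fintype ι] [DecidableEq κ] [Fintype κ] {m : ℕ} (e : Fin m ⊕ κ ≃ ι) :
    SpecialLinearGroup (Fin m) F →* SpecialLinearGroup ι F where
  toFun A := ⟨Matrix.reindex e e (fromBlocks A.1 0 0 1), by
    rw [det_reindex_self, det_fromBlocks_zero₂₁, A.2, det_one, one_mul]⟩
  map_one' := by
    apply Subtype.ext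
    show Matrix.reindex e e (fromBlocks (1 : Matrix (Fin m) (Fin m) F) 0 0 1) = 1
    rw [fromBlocks_one, reindex_apply, submatrix_one_equiv]
  map_mul' A B := by
    apply Subtype.ext
    show Matrix.reindex e e (fromBlocks (A.1 * B.1) 0 0 1) =
      Matrix.reindex e e (fromBlocks A.1 0 0 1) * Matrix.reindex e e (fromBlocks B.1 0 0 1)
    rw [reindex_apply, reindex_apply, reindex_apply, submatrix_mul_equiv, fromBlocks_multiply]
    simp

section

variable {κ ι : Type} [DecidableEq ι] [Fintype ι] [DecidableEq κ] [Fintype κ] {m : ℕ} (e : Fin m ⊕ κ ≃ ι)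

theorem sl_coe (A : SpecialLinearGroup (Fin m) F) :
    ((sl e A : SpecialLinearGroup ι F) : Matrix ι ι F) = Matrix.reindex e e (fromBlocks A.1 0 0 1) := rfl

theorem sl_injective : Function.Injective (sl e : SpecialLinearGroup (Fin m) F →* SpecialLinearGroup ι F) := by
  intro A B h
  have h1 : Matrix.reindex e e (fromBlocks A.1 0 0 (1 : Matrix κ κ F)) = Matrix.reindex e e (fromBlocks B.1 0 0 1) :=
    congrArg Subtype.val h
  have h2 := (Matrix.reindex e e).injective h1
  rw [fromBlocks_inj] at h2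
  exact Subtype.ext h2.1

/-- the coordinates in `κ` are fixed -/
theorem sl_mulVec (A : SpecialLinearGroup (Fin m) F) (k : κ) :
    ((sl e A : SpecialLinearGroup ι F) : Matrix ι ι F) *ᵥ Pi.single (e (Sum.inr k)) 1 =
      Pi.single (e (Sum.inr k)) 1 := by
  rw [sl_coe, mulVec_single_one]
  funext x
  obtain ⟨y, rfl⟩ := e.surjective x
  rw [col_apply, reindex_apply, submatrix_apply, Equiv.symm_apply_apply, Equiv.symm_apply_apply]
  rcases y with y | y
  · rw [fromBlocks_apply₁₂, Matrix.zero_apply, Pi.single_eq_of_ne]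
    intro h
    exact Sum.inl_ne_inr (e.injective h)
  · rw [fromBlocks_apply₂₂, Matrix.one_apply]
    by_cases h : y = k
    · rw [if_pos h, h, Pi.single_eq_same]
    · rw [if_neg h, Pi.single_eq_of_ne]
      intro h'
      exact h (Sum.inr_injective (e.injective h'))

end

/-- `SL_w → Ω` -/
theorem exists_hom {ι : Type} [Fintype ι] [DecidableEq ι] (Q : (ι → F) → F) {w : ℕ} (hw : 3 ≤ w)
    (j : GL (Fin w) F →* Matrix ι ι F) (hj : Function.Injective j) (hQ : ∀ A v, Q (j A *ᵥ v) = Q v) :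
    ∃ J : SpecialLinearGroup (Fin w) F →* Omega F Q, Function.Injective J ∧
      ∀ A, (((J A : Cfsg.isometryGroup F Q) : GL ι F) : Matrix ι ι F) = j (SpecialLinearGroup.toGL A) := by
  let j1 : GL (Fin w) F →* GL ι F := j.toHomUnits
  let j2 : GL (Fin w) F →* Cfsg.isometryGroup F Q := j1.codRestrict _ (fun A => by
    intro u v
    exact hQ A u)
  let j3 : SpecialLinearGroup (Fin w) F →* Cfsg.isometryGroup F Q := j2.comp SpecialLinearGroup.toGL
  have hperf : commutator (SpecialLinearGroup (Fin w) F) = ⊤ :=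
    Cfsg.Agent.LieClassical.SLGen.commutator_eq_top (by rwa [Fintype.card_fin])
  let j4 : SpecialLinearGroup (Fin w) F →* Cfsg.Omega F Q :=
    j3.codRestrict _ (fun A => mem_commutator_of_perfect hperf j3 A)
  refine ⟨j4, ?_, fun A => rfl⟩
  intro A B h
  have h1 : j3 A = j3 B := congrArg Subtype.val h
  have h2 : j1 (SpecialLinearGroup.toGL A) = j1 (SpecialLinearGroup.toGL B) := congrArg Subtype.val h1
  have h3 : j (SpecialLinearGroup.toGL A) = j (SpecialLinearGroup.toGL B) := congrArg Units.val h2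
  exact Subtype.ext (congrArg (fun g : GL (Fin w) F => (g : Matrix (Fin w) (Fin w) F)) (hj h3))

/-- the general principle -/
theorem exists_levi_of {ι : Type} [Fintype ι] [DecidableEq ι] {Q : QuadraticForm F (ι → F)} (hG : Good Q) {w : ℕ}
    (hw : 3 ≤ w) (j : GL (Fin w) F →* Matrix ι ι F) (hj : Function.Injective j)
    (hQ : ∀ A v, Q (j A *ᵥ v) = Q v) {m : ℕ} {κ : Type} [Fintype κ] [DecidableEq κ] (e : Fin m ⊕ κ ≃ Fin w)
    {v : ι → F} (hv0 : v ≠ 0) (hv : ∀ A : SpecialLinearGroup (Fin m) F, j (SpecialLinearGroup.toGL (sl e A)) *ᵥ v = v) :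
    ∃ l : SpecialLinearGroup (Fin m) F →* POmega F ⇑Q, Function.Injective l := by
  obtain ⟨J, hJ, hJv⟩ := exists_hom (⇑Q) hw j hj hQ
  refine ⟨(QuotientGroup.mk' (Subgroup.center (Cfsg.Omega F ⇑Q))).comp (J.comp (sl e)), ?_⟩
  rw [injective_iff_map_eq_one]
  intro A hA
  rw [MonoidHom.comp_apply, MonoidHom.comp_apply, QuotientGroup.mk'_apply, QuotientGroup.eq_one_iff] at hA
  obtain ⟨c, hc⟩ := scalar_of_center hG hA
  have h1 := hc v
  rw [omRho_apply, hJv, hv] at h1
  have h2 : c = 1 := by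
    by_contra hne
    apply hv0
    have h3 : (c - 1) • v = 0 := by rw [sub_smul, one_smul, ← h1, sub_self]
    exact (smul_eq_zero.1 h3).resolve_left (sub_ne_zero.2 hne)
  have h4 : omRho Q (J (sl e A)) = 1 := by
    apply LinearEquiv.ext
    intro x
    rw [hc, h2, one_smul]
    rfl
  have h5 : J (sl e A) = 1 := omRho_injective Q (by rw [h4, map_one])
  exact sl_injective e (hJ (by rw [h5, map_one, map_one]))

/-- `Fin m ⊕ Fin (w - m) ≃ Fin w` -/
def eqv {m w : ℕ} (h : m ≤ w) : Fin m ⊕ Fin (w - m) ≃ Fin w := finSumFinEquiv.trans (finCongr (by omega))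

variable [Finite F]

/-- **P1, plus type** -/
theorem exists_levi_plus {m w : ℕ} (hw : 3 ≤ w) (hm : m < w) :
    ∃ l : SpecialLinearGroup (Fin m) F →* POmega F ⇑(plusForm w F), Function.Injective l := by
  have hG : Good (plusForm w F) := (typ_plus F (by omega)).good (by
    rw [Fintype.card_sum, Fintype.card_fin]
    omega)
  refine exists_levi_of hG hw (lev w F) lev_injective (fun A v => by rw [coe_plusForm]; exact quadFormPlus_lev A v)
    (eqv hm.le) (v := Sum.elim (Pi.single (eqv hm.le (Sum.inr ⟨0, by omega⟩)) 1) 0) ?_ ?_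
  · intro h
    have h1 := congrFun h (Sum.inl (eqv hm.le (Sum.inr ⟨0, by omega⟩)))
    rw [Sum.elim_inl, Pi.single_eq_same] at h1
    exact one_ne_zero h1
  · intro A
    rw [lev_mulVec, Sum.elim_comp_inl, Sum.elim_comp_inr, mulVec_zero]
    congr 1
    exact sl_mulVec _ A _

/-- **P1, odd dimension** -/
theorem exists_levi_odd (h2 : (2 : F) ≠ 0) {m w : ℕ} (hw : 3 ≤ w) (hm : m ≤ w) :
    ∃ l : SpecialLinearGroup (Fin m) F →* POmega F ⇑(oddForm w F), Function.Injective l := by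
  have hG : Good (oddForm w F) := (typ_odd F h2 (by omega)).good (by
    rw [Fintype.card_sum, Fintype.card_sum, Fintype.card_fin, Fintype.card_unit]
    omega)
  have hmv : ∀ (A : GL (Fin w) F) (v : Unit ⊕ (Fin w ⊕ Fin w) → F),
      ((pre Unit (Fin w ⊕ Fin w) F).comp (lev w F)) A *ᵥ v = Sum.elim (v ∘ Sum.inl) (lev w F A *ᵥ (v ∘ Sum.inr)) := by
    intro A v
    show fromBlocks (1 : Matrix Unit Unit F) 0 0 (lev w F A) *ᵥ v = _
    rw [fromBlocks_mulVec]
    simp
  refine exists_levi_of hG hw ((pre Unit (Fin w ⊕ Fin w) F).comp (lev w F)) ?_ ?_ (eqv hm) (v := Sum.elim 1 0) ?_ ?_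
  · intro A B h
    have h1 : fromBlocks (1 : Matrix Unit Unit F) 0 0 (lev w F A) = fromBlocks 1 0 0 (lev w F B) := h
    rw [fromBlocks_inj] at h1
    exact lev_injective h1.2.2.2
  · intro A v
    rw [hmv, coe_oddForm]
    have h2 := quadFormPlus_lev A (v ∘ Sum.inr)
    show v (Sum.inl ()) ^ 2 + Cfsg.quadFormPlus w F (lev w F A *ᵥ (v ∘ Sum.inr)) =
      v (Sum.inl ()) ^ 2 + Cfsg.quadFormPlus w F (v ∘ Sum.inr)
    rw [h2]
  · intro h
    have h1 := congrFun h (Sum.inl ())
    rw [Sum.elim_inl] at h1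
    exact one_ne_zero h1
  · intro A
    rw [hmv, Sum.elim_comp_inl, Sum.elim_comp_inr, mulVec_zero]

/-- **P1, minus type** -/
theorem exists_levi_minus (a b : F) (hab : ∀ z₁ z₂ : F, z₁ ^ 2 + a * z₁ * z₂ + b * z₂ ^ 2 = 0 → z₁ = 0 ∧ z₂ = 0)
    {m w : ℕ} (hw : 3 ≤ w) (hm : m ≤ w) :
    ∃ l : SpecialLinearGroup (Fin m) F →* POmega F ⇑(minusForm w F a b), Function.Injective l := by
  have hG : Good (minusForm w F a b) := (typ_minus F a b hab (by omega)).good (by
    rw [Fintype.card_sum, Fintype.card_sum, Fintype.card_fin, Fintype.card_fin]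
    omega)
  have hmv : ∀ (A : GL (Fin w) F) (v : (Fin w ⊕ Fin w) ⊕ Fin 2 → F),
      ((post (Fin 2) (Fin w ⊕ Fin w) F).comp (lev w F)) A *ᵥ v = Sum.elim (lev w F A *ᵥ (v ∘ Sum.inl)) (v ∘ Sum.inr) := by
    intro A v
    show fromBlocks (lev w F A) 0 0 (1 : Matrix (Fin 2) (Fin 2) F) *ᵥ v = _
    rw [fromBlocks_mulVec]
    simp
  refine exists_levi_of hG hw ((post (Fin 2) (Fin w ⊕ Fin w) F).comp (lev w F)) ?_ ?_ (eqv hm) (v := Sum.elim 0 1) ?_ ?_
  · intro A B h
    have h1 : fromBlocks (lev w F A) 0 0 (1 : Matrix (Fin 2) (Fin 2) F) = fromBlocks (lev w F B) 0 0 1 := h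
    rw [fromBlocks_inj] at h1
    exact lev_injective h1.1
  · intro A v
    rw [hmv, coe_minusForm]
    have h2 := quadFormPlus_lev A (v ∘ Sum.inl)
    show Cfsg.quadFormPlus w F (lev w F A *ᵥ (v ∘ Sum.inl)) + _ = Cfsg.quadFormPlus w F (v ∘ Sum.inl) + _
    rw [h2]
    rfl
  · intro h
    have h1 := congrFun h (Sum.inr 0)
    rw [Sum.elim_inr] at h1
    exact one_ne_zero h1
  · intro A
    rw [hmv, Sum.elim_comp_inl, Sum.elim_comp_inr, mulVec_zero]

end Cfsg.Agent.H35.BD
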